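import Mathlib
import Cfsg.Agent.Lib.Helper9.S3805.Defs

/-!
# S3805, package PkgCArith (helper13): the final arithmetic
-/

set_option autoImplicit false

namespace Cfsg.Agent.Lib.Helper13.S3805

open Cfsg.Agent.Lib.Helper9.S3805

theorem sq_ne_three_mul_add_two (x t : ℤ) : x ^ 2 ≠ 3 * t + 2 := by
  intro h
  have h1 : ((x ^ 2 : ℤ) : ZMod 3) = ((3 * t + 2 : ℤ) : ZMod 3) := by rw [h]
  push_cast at h1
  have h3 : (3 : ZMod 3) = 0 := by decide
  rw [h3, zero_mul, zero_add] at h1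
  revert h1
  generalize (x : ZMod 3) = z
  revert z
  decide

theorem sq_ne_four_mul_add_three (x t : ℤ) : x ^ 2 ≠ 4 * t + 3 := by
  intro h
  have h1 : ((x ^ 2 : ℤ) : ZMod 4) = ((4 * t + 3 : ℤ) : ZMod 4) := by rw [h]
  push_cast at h1
  have h3 : (4 : ZMod 4) = 0 := by decide
  rw [h3, zero_mul, zero_add] at h1
  revert h1
  generalize (x : ZMod 4) = z
  revert z
  decide

theorem pkgCArith : PkgCArith := by
  intro e k he h
  have hE1 : (1 : ℤ) ≤ (e : ℤ) := by exact_mod_cast he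
  generalize (e : ℤ) = E at h hE1
  -- `3 ∣ E - (3k+1)`
  have h3 : (3 : ℤ) ∣ E - (3 * k + 1) := by
    have hp : Prime (3 : ℤ) := Int.prime_three
    have h9 : (3 : ℤ) ∣ 8 * (E - (3 * k + 1)) ^ 2 := by
      rw [h]
      exact ⟨3 * E * (E + 1), by ring⟩
    rcases hp.dvd_or_dvd h9 with h8 | hd2
    · exfalso
      norm_num at h8
    · exact hp.dvd_of_dvd_pow hd2
  obtain ⟨m, hm⟩ := h3
  have h1 : E * (E + 1) = 8 * m ^ 2 := by
    rw [hm] at h
    have h9 : 9 * (E * (E + 1)) = 9 * (8 * m ^ 2) := by linear_combination -h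
    exact mul_left_cancel₀ (by norm_num : (9 : ℤ) ≠ 0) h9
  have hmod : E = 3 * (m + k) + 1 := by linear_combination hm
  rcases Int.even_or_odd' E with ⟨f, hf | hf⟩
  · -- `E = 2 f`
    have h2 : f * (2 * f + 1) = 4 * m ^ 2 := by
      rw [hf] at h1
      have h9 : 2 * (f * (2 * f + 1)) = 2 * (4 * m ^ 2) := by linear_combination h1
      exact mul_left_cancel₀ (by norm_num : (2 : ℤ) ≠ 0) h9
    have hc : IsCoprime (4 : ℤ) (2 * f + 1) := ⟨-(f ^ 2 + f), 2 * f + 1, by ring⟩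
    have h4 : (4 : ℤ) ∣ f := hc.dvd_of_dvd_mul_right ⟨m ^ 2, h2⟩
    obtain ⟨s, hs⟩ := h4
    have h5 : (8 * s + 1) * s = m ^ 2 := by
      rw [hs] at h2
      have h9 : 4 * ((8 * s + 1) * s) = 4 * m ^ 2 := by linear_combination h2
      exact mul_left_cancel₀ (by norm_num : (4 : ℤ) ≠ 0) h9
    have hg : Int.gcd (8 * s + 1) s = 1 :=
      Int.isCoprime_iff_gcd_eq_one.1 ⟨1, -8, by ring⟩
    obtain ⟨x, hx | hx⟩ := Int.sq_of_gcd_eq_one hg h5
    · exact sq_ne_three_mul_add_two x (m + k) (by rw [← hx]; linarith)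
    · have hx2 : 0 ≤ x ^ 2 := sq_nonneg x
      linarith
  · -- `E = 2 f + 1`
    have h2 : (2 * f + 1) * (f + 1) = 4 * m ^ 2 := by
      rw [hf] at h1
      have h9 : 2 * ((2 * f + 1) * (f + 1)) = 2 * (4 * m ^ 2) := by linear_combination h1
      exact mul_left_cancel₀ (by norm_num : (2 : ℤ) ≠ 0) h9
    have hc : IsCoprime (4 : ℤ) (2 * f + 1) := ⟨-(f ^ 2 + f), 2 * f + 1, by ring⟩
    have h4 : (4 : ℤ) ∣ f + 1 := hc.dvd_of_dvd_mul_left ⟨m ^ 2, h2⟩
    obtain ⟨s, hs⟩ := h4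
    have hfs : f = 4 * s - 1 := by linarith
    have h5 : (8 * s - 1) * s = m ^ 2 := by
      rw [hfs] at h2
      have h9 : 4 * ((8 * s - 1) * s) = 4 * m ^ 2 := by linear_combination h2
      exact mul_left_cancel₀ (by norm_num : (4 : ℤ) ≠ 0) h9
    have hg : Int.gcd (8 * s - 1) s = 1 :=
      Int.isCoprime_iff_gcd_eq_one.1 ⟨-1, 8, by ring⟩
    obtain ⟨x, hx | hx⟩ := Int.sq_of_gcd_eq_one hg h5
    · exact sq_ne_four_mul_add_three x (2 * s - 1) (by rw [← hx]; ring)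
    · have hx2 : 0 ≤ x ^ 2 := sq_nonneg x
      linarith

end Cfsg.Agent.Lib.Helper13.S3805
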