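import Mathlib
import Cfsg.Agent.Lib.Helper9.S3805.Defs

/-!
# S3805, packages PkgTI and PkgTIA (helper13)
-/

set_option autoImplicit false
set_option maxRecDepth 100000

universe u

namespace Cfsg.Agent.Lib.Helper13.S3805

open Cfsg.Agent.Lib.Helper9.S3805

theorem P_inT_comm : ∀ p q : P, inT p = true → inT q = true → p * q = q * p := by decide

theorem P_inT_cube : ∀ p : P, inT p = true → p * p * p = 1 := by decide

theorem P_inT_of_cube : ∀ q : P, q * q * q = 1 → inT q = true := by decide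

theorem P_inA1_sq : ∀ p : P, inA1 p = true → inT (p * p) = true ∧ p * p ≠ 1 := by decide

/-- `T` is abelian. -/
theorem model_T_comm {G : Type u} [Group G] {T : Subgroup G} (M : Model G T) :
    ∀ x ∈ T, ∀ y ∈ T, x * y = y * x := by
  intro x hx y hy
  have hxN : x ∈ M.ψ.range := by rw [M.range_eq]; exact Subgroup.le_normalizer hx
  have hyN : y ∈ M.ψ.range := by rw [M.range_eq]; exact Subgroup.le_normalizer hy
  obtain ⟨x', rfl⟩ := hxN
  obtain ⟨y', rfl⟩ := hyN
  rw [← map_mul, ← map_mul, P_inT_comm x' y' ((M.mem_T x').1 hx) ((M.mem_T y').1 hy)]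

/-- Elements of `T` have order dividing 3. -/
theorem model_T_cube {G : Type u} [Group G] {T : Subgroup G} (M : Model G T) :
    ∀ x ∈ T, x * x * x = 1 := by
  intro x hx
  have hxN : x ∈ M.ψ.range := by rw [M.range_eq]; exact Subgroup.le_normalizer hx
  obtain ⟨x', rfl⟩ := hxN
  rw [← map_mul, ← map_mul, P_inT_cube x' ((M.mem_T x').1 hx), map_one]

theorem conj_cube {G : Type u} [Group G] (g x : G) (h : x * x * x = 1) :
    g * x * g⁻¹ * (g * x * g⁻¹) * (g * x * g⁻¹) = 1 := by
  have e : g * x * g⁻¹ * (g * x * g⁻¹) * (g * x * g⁻¹) = g * (x * x * x) * g⁻¹ := by group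
  rw [e, h]
  group

theorem pkgTI : PkgTI.{u} := by
  intro G _ _ T M hLoc g p q hp hp1 hgq
  have hpT : M.ψ p ∈ T := (M.mem_T p).2 hp
  have hψp1 : M.ψ p ≠ 1 := fun h => hp1 (M.inj (h.trans (map_one _).symm))
  have hq3 : q * q * q = 1 := by
    apply M.inj
    rw [map_mul, map_mul, map_one, ← hgq]
    exact conj_cube g _ (model_T_cube M _ hpT)
  have hqT : inT q = true := P_inT_of_cube q hq3
  have hq1 : q ≠ 1 := by
    rintro rfl
    rw [map_one] at hgq
    apply hψp1
    have e : M.ψ p = g⁻¹ * (g * M.ψ p * g⁻¹) * g := by group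
    rw [e, hgq]
    group
  have hψqT : M.ψ q ∈ T := (M.mem_T q).2 hqT
  have hψq1 : M.ψ q ≠ 1 := fun h => hq1 (M.inj (h.trans (map_one _).symm))
  have hsub : ∀ t ∈ T, g * t * g⁻¹ ∈ T := by
    intro t ht
    have hc : g * t * g⁻¹ ∈ Subgroup.centralizer ({M.ψ q} : Set G) := by
      rw [Subgroup.mem_centralizer_iff]
      intro z hz
      rw [Set.mem_singleton_iff] at hz
      rw [hz, ← hgq]
      have h1 := model_T_comm M _ hpT t ht
      calc g * M.ψ p * g⁻¹ * (g * t * g⁻¹) = g * (M.ψ p * t) * g⁻¹ := by group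
        _ = g * (t * M.ψ p) * g⁻¹ := by rw [h1]
        _ = g * t * g⁻¹ * (g * M.ψ p * g⁻¹) := by group
    have hN := hLoc (M.ψ q) hψqT hψq1 hc
    rw [← M.range_eq] at hN
    obtain ⟨s, hs⟩ := hN
    rw [← hs, M.mem_T]
    apply P_inT_of_cube
    apply M.inj
    rw [map_mul, map_mul, hs, map_one]
    exact conj_cube g t (model_T_cube M t ht)
  rw [Subgroup.mem_normalizer_iff]
  intro t
  constructor
  · exact hsub t
  · intro h
    let f : T → T := fun t => ⟨g * t * g⁻¹, hsub t t.2⟩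
    have hf : Function.Injective f := by
      intro t1 t2 h12
      have h3 : g * (t1 : G) * g⁻¹ = g * (t2 : G) * g⁻¹ := congrArg Subtype.val h12
      exact Subtype.ext (mul_left_cancel (mul_right_cancel h3))
    obtain ⟨t', ht'⟩ := Finite.surjective_of_injective hf ⟨g * t * g⁻¹, h⟩
    have h3 : g * (t' : G) * g⁻¹ = g * t * g⁻¹ := congrArg Subtype.val ht'
    have h4 : (t' : G) = t := mul_left_cancel (mul_right_cancel h3)
    rw [← h4]
    exact t'.2

theorem pkgTIA : PkgTIA.{u} := by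
  intro G _ _ T M hLoc g p q hp hgq
  obtain ⟨h1, h2⟩ := P_inA1_sq p hp
  refine pkgTI T M hLoc g (p * p) (q * q) h1 h2 ?_
  rw [map_mul, map_mul, ← hgq]
  group

end Cfsg.Agent.Lib.Helper13.S3805
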