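import Mathlib
import Cfsg.Agent.Lib.Helper9.S3805.Defs
import Cfsg.Agent.Lib.Helper13.S3805.TI

/-!
# S3805, package PkgSyl (helper13): `i` and `j` are not conjugate
-/

set_option autoImplicit false
set_option maxRecDepth 100000

universe u

namespace Cfsg.Agent.Lib.Helper13.S3805

open Cfsg.Agent.Lib.Helper9.S3805

theorem P_b_i_comm : b₀ * i₀ = i₀ * b₀ := by decide

theorem P_a_j_comm : a₀ * j₀ = j₀ * a₀ := by decide

theorem P_a_inT : inT a₀ = true ∧ a₀ ≠ 1 := by decide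

theorem P_b_inT : inT b₀ = true ∧ b₀ ≠ 1 := by decide

theorem P_a_cube : a₀ * a₀ * a₀ = 1 := by decide

theorem P_b_cube : b₀ * b₀ * b₀ = 1 := by decide

theorem P_no_conj : ∀ n t : P, inT t = true → t * j₀ = j₀ * t → n * b₀ * n⁻¹ ≠ t := by decide

theorem isPGroup_zpowers_of_cube {H : Type*} [Group H] (x : H) (hx : x * x * x = 1) :
    IsPGroup 3 (Subgroup.zpowers x) := by
  intro y
  refine ⟨1, ?_⟩
  obtain ⟨y, hy⟩ := y
  obtain ⟨n, rfl⟩ := Subgroup.mem_zpowers_iff.1 hy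
  apply Subtype.ext
  have hx3 : x ^ 3 = 1 := by rw [pow_succ, pow_two]; exact hx
  simp only [pow_one, Subgroup.coe_pow, Subgroup.coe_one]
  rw [← zpow_natCast, ← zpow_mul, mul_comm, zpow_mul, zpow_natCast, hx3, one_zpow]

/-- A 3-subgroup containing `a` lies in `T`. -/
theorem three_group_le_T {G : Type u} [Group G] [Finite G] (T : Sylow 3 G)
    (M : Model G (T : Subgroup G)) (hLoc : Loc (T : Subgroup G)) (S : Subgroup G)
    (hS : IsPGroup 3 S) (haS : M.ψ a₀ ∈ S) :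
    ∀ s ∈ S, ∃ t : P, inT t = true ∧ M.ψ t = s := by
  intro s hs
  obtain ⟨Q, hQ⟩ := hS.exists_le_sylow
  obtain ⟨x, hx⟩ := MulAction.exists_smul_eq G T Q
  have key : ∀ y ∈ S, x⁻¹ * y * x ∈ (T : Subgroup G) := by
    intro y hy
    have h1 : y ∈ (Q : Subgroup G) := hQ hy
    rw [← hx, Sylow.coe_subgroup_smul, Subgroup.mem_pointwise_smul_iff_inv_smul_mem] at h1
    simpa [MulAut.smul_def] using h1
  have h1 := key s hs
  have h2 := key _ haS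
  have hcomm : M.ψ a₀ * s = s * M.ψ a₀ := by
    have h3 := model_T_comm M _ h2 _ h1
    have e : M.ψ a₀ * s = x * ((x⁻¹ * M.ψ a₀ * x) * (x⁻¹ * s * x)) * x⁻¹ := by group
    rw [e, h3]
    group
  have hs3 : s * s * s = 1 := by
    have h3 := model_T_cube M _ h1
    have e : s * s * s = x * ((x⁻¹ * s * x) * (x⁻¹ * s * x) * (x⁻¹ * s * x)) * x⁻¹ := by group
    rw [e, h3]
    group
  have haT : M.ψ a₀ ∈ (T : Subgroup G) := (M.mem_T a₀).2 P_a_inT.1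
  have ha1 : M.ψ a₀ ≠ 1 := fun h => P_a_inT.2 (M.inj (h.trans (map_one _).symm))
  have hsN : s ∈ Subgroup.centralizer ({M.ψ a₀} : Set G) := by
    rw [Subgroup.mem_centralizer_iff]
    intro z hz
    rw [Set.mem_singleton_iff] at hz
    rw [hz]
    exact hcomm
  have hN := hLoc _ haT ha1 hsN
  rw [← M.range_eq] at hN
  obtain ⟨t, ht⟩ := hN
  refine ⟨t, P_inT_of_cube t ?_, ht⟩
  apply M.inj
  rw [map_mul, map_mul, ht, map_one, hs3]

theorem pkgSyl : PkgSyl.{u} := by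
  intro hTI G _ _ T M hLoc g hg
  let C : Subgroup G := Subgroup.centralizer ({M.ψ j₀} : Set G)
  have haC : M.ψ a₀ ∈ C := by
    rw [Subgroup.mem_centralizer_iff]
    intro z hz
    rw [Set.mem_singleton_iff] at hz
    rw [hz, ← map_mul, ← map_mul, P_a_j_comm]
  have hbC : g * M.ψ b₀ * g⁻¹ ∈ C := by
    rw [Subgroup.mem_centralizer_iff]
    intro z hz
    rw [Set.mem_singleton_iff] at hz
    rw [hz, ← hg]
    have h1 : M.ψ b₀ * M.ψ i₀ = M.ψ i₀ * M.ψ b₀ := by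
      rw [← map_mul, ← map_mul, P_b_i_comm]
    calc g * M.ψ i₀ * g⁻¹ * (g * M.ψ b₀ * g⁻¹) = g * (M.ψ i₀ * M.ψ b₀) * g⁻¹ := by group
      _ = g * (M.ψ b₀ * M.ψ i₀) * g⁻¹ := by rw [h1]
      _ = g * M.ψ b₀ * g⁻¹ * (g * M.ψ i₀ * g⁻¹) := by group
  have ha3 : (⟨M.ψ a₀, haC⟩ : C) * ⟨M.ψ a₀, haC⟩ * ⟨M.ψ a₀, haC⟩ = 1 := by
    apply Subtype.ext
    show M.ψ a₀ * M.ψ a₀ * M.ψ a₀ = 1
    rw [← map_mul, ← map_mul, P_a_cube, map_one]
  have hb3 : (⟨g * M.ψ b₀ * g⁻¹, hbC⟩ : C) * ⟨g * M.ψ b₀ * g⁻¹, hbC⟩ *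
      ⟨g * M.ψ b₀ * g⁻¹, hbC⟩ = 1 := by
    apply Subtype.ext
    show g * M.ψ b₀ * g⁻¹ * (g * M.ψ b₀ * g⁻¹) * (g * M.ψ b₀ * g⁻¹) = 1
    apply conj_cube
    rw [← map_mul, ← map_mul, P_b_cube, map_one]
  obtain ⟨A', hA'⟩ := (isPGroup_zpowers_of_cube _ ha3).exists_le_sylow
  obtain ⟨B', hB'⟩ := (isPGroup_zpowers_of_cube _ hb3).exists_le_sylow
  obtain ⟨c, hc⟩ := MulAction.exists_smul_eq C A' B'
  have hbB : (⟨g * M.ψ b₀ * g⁻¹, hbC⟩ : C) ∈ (B' : Subgroup C) :=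
    hB' (Subgroup.mem_zpowers _)
  rw [← hc, Sylow.coe_subgroup_smul, Subgroup.mem_pointwise_smul_iff_inv_smul_mem] at hbB
  have hsA : c⁻¹ * (⟨g * M.ψ b₀ * g⁻¹, hbC⟩ : C) * c ∈ (A' : Subgroup C) := by
    simpa [MulAut.smul_def] using hbB
  -- the image of `A'` in `G`
  have hS3 : IsPGroup 3 ((A' : Subgroup C).map C.subtype) := A'.isPGroup'.map C.subtype
  have haS : M.ψ a₀ ∈ (A' : Subgroup C).map C.subtype :=
    ⟨⟨M.ψ a₀, haC⟩, hA' (Subgroup.mem_zpowers _), rfl⟩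
  have hsS : (c : G)⁻¹ * (g * M.ψ b₀ * g⁻¹) * (c : G) ∈ (A' : Subgroup C).map C.subtype :=
    ⟨_, hsA, rfl⟩
  obtain ⟨t, htT, ht⟩ := three_group_le_T T M hLoc _ hS3 haS _ hsS
  -- `t` commutes with `j₀`
  have hsC : (c : G)⁻¹ * (g * M.ψ b₀ * g⁻¹) * (c : G) ∈ C :=
    (c⁻¹ * (⟨g * M.ψ b₀ * g⁻¹, hbC⟩ : C) * c).2
  have htj : t * j₀ = j₀ * t := by
    apply M.inj
    rw [map_mul, map_mul, ht]
    exact ((Subgroup.mem_centralizer_iff.1 hsC) (M.ψ j₀) (Set.mem_singleton _)).symm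
  -- `c⁻¹ g` normalizes `T`
  have hconj : ((c : G)⁻¹ * g) * M.ψ b₀ * ((c : G)⁻¹ * g)⁻¹ = M.ψ t := by
    rw [ht]
    group
  have hN := hTI (T : Subgroup G) M hLoc ((c : G)⁻¹ * g) b₀ t P_b_inT.1 P_b_inT.2 hconj
  rw [← M.range_eq] at hN
  obtain ⟨n, hn⟩ := hN
  have hfin : n * b₀ * n⁻¹ = t := by
    apply M.inj
    rw [map_mul, map_mul, map_inv, hn]
    exact hconj
  exact P_no_conj n t htT htj hfin

end Cfsg.Agent.Lib.Helper13.S3805
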